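import Mathlib
import Cfsg.Agent.Lib.Helper65.S4415.ExtDefs

/-!
# S4415, sub-package [X-R2]: the elements of `R` act as `h ↦ p h γ` with `p, γ ∈ Q8`
-/

set_option autoImplicit false

namespace Cfsg.Agent.Lib.Helper3.S4415

open Cfsg.Agent.Lib.Helper78.S4415 Cfsg.Agent.Lib.Helper65.S4415

universe u v

theorem h_zero_ne_one : (0 : H) ≠ 1 := by
  intro h
  have h' : (0 : H).re = (1 : H).re := by rw [h]
  have h'' : (0 : ZMod 3) = 1 := h'
  revert h''
  decide

section lr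

variable {G : Type u} [Group G] {V : Type v} [AddCommGroup V] [Module (ZMod 3) V]
  (ρ : Representation (ZMod 3) G V) (φ : V ≃ₗ[ZMod 3] H)

theorem lr_one : LR ρ φ 1 1 1 := by
  intro v
  rw [map_one, one_mul, mul_one]
  rfl

theorem lr_mul {g g' : G} {α γ α' γ' : H} (h : LR ρ φ g α γ) (h' : LR ρ φ g' α' γ') :
    LR ρ φ (g * g') (α * α') (γ' * γ) := by
  intro v
  rw [map_mul, Module.End.mul_apply, h, h']
  simp only [mul_assoc]

theorem lr_inv {g : G} {α γ α' γ' : H} (h : LR ρ φ g α γ) (hα : α' * α = 1) (hγ : γ * γ' = 1) :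
    LR ρ φ g⁻¹ α' γ' := by
  intro v
  have h1 := h (ρ g⁻¹ v)
  have h2 : ρ g (ρ g⁻¹ v) = v := by
    rw [← Module.End.mul_apply, ← map_mul, mul_inv_cancel, map_one]
    rfl
  rw [h2] at h1
  rw [h1]
  calc φ (ρ g⁻¹ v) = (α' * α) * φ (ρ g⁻¹ v) * (γ * γ') := by rw [hα, hγ, one_mul, mul_one]
    _ = α' * (α * φ (ρ g⁻¹ v) * γ) * γ' := by simp only [mul_assoc]

theorem lr_pow {g : G} {α γ : H} (h : LR ρ φ g α γ) (k : ℕ) :
    LR ρ φ (g ^ k) (α ^ k) (γ ^ k) := by
  induction k with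
  | zero =>
    rw [pow_zero, pow_zero, pow_zero]
    exact lr_one ρ φ
  | succ k ih =>
    have h1 := lr_mul ρ φ ih h
    rw [← pow_succ, ← pow_succ, ← pow_succ'] at h1
    exact h1

/-- the elements acting as `h ↦ α h γ` with `α, γ` of norm `1` -/
def normOne : Subgroup G where
  carrier := {g | ∃ α γ : H, Quaternion.normSq α = 1 ∧ Quaternion.normSq γ = 1 ∧ LR ρ φ g α γ}
  one_mem' := ⟨1, 1, map_one _, map_one _, lr_one ρ φ⟩
  mul_mem' := by
    rintro g g' ⟨α, γ, hα, hγ, h⟩ ⟨α', γ', hα', hγ', h'⟩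
    exact ⟨α * α', γ' * γ, by rw [map_mul, hα, hα', mul_one], by rw [map_mul, hγ', hγ, mul_one],
      lr_mul ρ φ h h'⟩
  inv_mem' := by
    rintro g ⟨α, γ, hα, hγ, h⟩
    refine ⟨star α, star γ, by rw [Quaternion.normSq_star, hα], by rw [Quaternion.normSq_star, hγ],
      lr_inv ρ φ h ?_ ?_⟩
    · rw [Quaternion.star_mul_self, hα, Quaternion.coe_one]
    · rw [Quaternion.self_mul_star, hγ, Quaternion.coe_one]

theorem mem_normOne (g : G) : g ∈ normOne ρ φ ↔
    ∃ α γ : H, Quaternion.normSq α = 1 ∧ Quaternion.normSq γ = 1 ∧ LR ρ φ g α γ := Iff.rfl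

end lr

/-- if `h ↦ A h C` is the identity then `A, C ∈ {1, -1}` -/
theorem pm_one_of_lr (F : FinFacts) (A C : H) (key : ∀ h : H, A * h * C = h) :
    (A = 1 ∨ A = -1) ∧ (C = 1 ∨ C = -1) := by
  have hAC : A * C = 1 := by
    have := key 1
    rwa [mul_one] at this
  have hnA : Quaternion.normSq A ≠ 0 := by
    intro h0
    have h1 : Quaternion.normSq (A * C) = 1 := by rw [hAC, map_one]
    rw [map_mul, h0, zero_mul] at h1
    revert h1
    decide
  obtain ⟨A', hA1, hA2⟩ := F.unit A hnA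
  have hC : C = A' := by
    calc C = A' * A * C := by rw [hA2, one_mul]
      _ = A' * (A * C) := by rw [mul_assoc]
      _ = A' := by rw [hAC, mul_one]
  have hCA : C * A = 1 := by
    rw [hC]
    exact hA2
  have hcen : ∀ h : H, A * h = h * A := by
    intro h
    calc A * h = A * h * (C * A) := by rw [hCA, mul_one]
      _ = A * h * C * A := by rw [← mul_assoc]
      _ = h * A := by rw [key h]
  rcases F.center A hcen with h | h | h
  · exfalso
    rw [h, zero_mul] at hAC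
    exact h_zero_ne_one hAC
  · refine ⟨Or.inl h, Or.inl ?_⟩
    rw [h, one_mul] at hAC
    exact hAC
  · refine ⟨Or.inr h, Or.inr ?_⟩
    rw [h, neg_one_mul] at hAC
    rw [← hAC, neg_neg]

/-- [X-R2] -/
theorem pkgXR2 : PkgXR2.{u, v} := by
  intro F G _ _ V _ _ _ ρ R b Q N z x y φ hC hB hU r hr
  obtain ⟨β₁, β₂, hb, hβ₁, hβ₂, -⟩ := hB
  have hbG : b ∈ normOne ρ φ := ⟨β₁, β₂, F.cube_norm β₁ hβ₁, F.cube_norm β₂ hβ₂, hb⟩
  have hzp : Subgroup.zpowers b ≤ normOne ρ φ := (Subgroup.zpowers_le).mpr hbG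
  have hconj : ∀ r ∈ R, ∀ c ∈ normOne ρ φ, r * c * r⁻¹ ∈ normOne ρ φ := by
    rintro r hr c ⟨β, β', hβ, hβ', hc⟩
    obtain ⟨α, γ, hα, hγ, hrLR⟩ := hU r hr
    obtain ⟨α', hα1, hα2⟩ := F.unit α hα
    obtain ⟨γ', hγ1, hγ2⟩ := F.unit γ hγ
    have hn1 : Quaternion.normSq α * Quaternion.normSq α' = 1 := by
      rw [← map_mul, hα1, map_one]
    have hn2 : Quaternion.normSq γ' * Quaternion.normSq γ = 1 := by
      rw [← map_mul, hγ2, map_one]
    refine ⟨α * β * α', γ' * (β' * γ), ?_, ?_,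
      lr_mul ρ φ (lr_mul ρ φ hrLR hc) (lr_inv ρ φ hrLR hα2 hγ1)⟩
    · rw [map_mul, map_mul, hβ, mul_one, hn1]
    · rw [map_mul, map_mul, hβ', one_mul, hn2]
  have hR : R ≤ normOne ρ φ := by
    have h1 : ⁅R, Subgroup.zpowers b⁆ ≤ normOne ρ φ := by
      rw [Subgroup.commutator_le]
      intro g₁ hg₁ g₂ hg₂
      rw [commutatorElement_def]
      exact mul_mem (hconj g₁ hg₁ g₂ (hzp hg₂)) (inv_mem (hzp hg₂))
    rw [hC.setup.comm] at h1
    exact h1
  obtain ⟨α, γ, hα, hγ, hrLR⟩ := hR hr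
  have hm : (orderOf r).Coprime 3 :=
    Nat.Coprime.coprime_dvd_left (Subgroup.orderOf_dvd_natCard R hr) hC.setup.cop
  have hpow := lr_pow ρ φ hrLR (orderOf r)
  rw [pow_orderOf_eq_one] at hpow
  have key : ∀ h : H, α ^ orderOf r * h * γ ^ orderOf r = h := by
    intro h
    have h1 := hpow (φ.symm h)
    rw [map_one, LinearEquiv.apply_symm_apply] at h1
    rw [← h1]
    show φ ((1 : Module.End (ZMod 3) V) (φ.symm h)) = h
    rw [Module.End.one_apply, LinearEquiv.apply_symm_apply]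
  obtain ⟨hA, hC'⟩ := pm_one_of_lr F _ _ key
  exact ⟨α, γ, F.q8_of_order α hα (orderOf r) hm hA, F.q8_of_order γ hγ (orderOf r) hm hC', hrLR⟩

end Cfsg.Agent.Lib.Helper3.S4415
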