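import Mathlib
import Cfsg.Agent.Lib.Helper65.S4415.ExtDefs
import Cfsg.Agent.Lib.Helper61.S4415.XTools
import Cfsg.Agent.Lib.Helper3.S4415.XR2

/-!
# S4415, sub-package [X-R1]: the elements of `R` act as `h ↦ α h γ` with units `α, γ`

Route without counting: every `g` acts as `h ↦ α h γ` or as `h ↦ α (star h) γ` (units), the
product of two elements of the second kind is of the first kind, so commutators with elements
of the first kind are of the first kind.
-/

set_option autoImplicit false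

namespace Cfsg.Agent.Lib.Helper3.S4415

open Cfsg.Agent.Lib.Helper78.S4415 Cfsg.Agent.Lib.Helper65.S4415

universe u v

theorem zmod3_mul_ne_zero : ∀ a b : ZMod 3, a ≠ 0 → b ≠ 0 → a * b ≠ 0 := by decide

theorem q8_cases (p : H) (hp : Q8 p) : p = 1 ∨ p = -1 ∨ p * p = -1 := by
  rcases hp with rfl | rfl | rfl | rfl | rfl | rfl | rfl | rfl <;> decide

theorem q8_neg (p : H) (hp : Q8 p) : Q8 (-p) := by
  rcases hp with rfl | rfl | rfl | rfl | rfl | rfl | rfl | rfl <;> unfold Q8 <;> decide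

theorem q8_star (p : H) (hp : Q8 p) : Q8 (star p) := by
  rcases hp with rfl | rfl | rfl | rfl | rfl | rfl | rfl | rfl <;> unfold Q8 <;> decide

/-- `star` as a linear map -/
def starLM : H →ₗ[ZMod 3] H where
  toFun := star
  map_add' := star_add
  map_smul' := fun c a => by
    simp

theorem starLM_apply (h : H) : starLM h = star h := rfl

/-- `g` acts on the model as `h ↦ α * star h * γ` -/
def AL {G : Type u} [Group G] {V : Type v} [AddCommGroup V] [Module (ZMod 3) V]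
    (ρ : Representation (ZMod 3) G V) (φ : V ≃ₗ[ZMod 3] H) (g : G) (α γ : H) : Prop :=
  ∀ v : V, φ (ρ g v) = α * star (φ v) * γ

section al

variable {G : Type u} [Group G] {V : Type v} [AddCommGroup V] [Module (ZMod 3) V]
  (ρ : Representation (ZMod 3) G V) (φ : V ≃ₗ[ZMod 3] H)

theorem al_lr {g g' : G} {α γ α' γ' : H} (h : AL ρ φ g α γ) (h' : LR ρ φ g' α' γ') :
    AL ρ φ (g * g') (α * star γ') (star α' * γ) := by
  intro v
  rw [map_mul, Module.End.mul_apply, h, h', star_mul, star_mul]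
  simp only [mul_assoc]

theorem al_al {g g' : G} {α γ α' γ' : H} (h : AL ρ φ g α γ) (h' : AL ρ φ g' α' γ') :
    LR ρ φ (g * g') (α * star γ') (star α' * γ) := by
  intro v
  rw [map_mul, Module.End.mul_apply, h, h', star_mul, star_mul, star_star]
  simp only [mul_assoc]

/-- the elements acting as `h ↦ α h γ` with units `α, γ` -/
def unitLR (F : FinFacts) : Subgroup G where
  carrier := {g | ∃ α γ : H, Quaternion.normSq α ≠ 0 ∧ Quaternion.normSq γ ≠ 0 ∧ LR ρ φ g α γ}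
  one_mem' := ⟨1, 1, by rw [map_one]; decide, by rw [map_one]; decide, lr_one ρ φ⟩
  mul_mem' := by
    rintro g g' ⟨α, γ, hα, hγ, h⟩ ⟨α', γ', hα', hγ', h'⟩
    exact ⟨α * α', γ' * γ, by rw [map_mul]; exact zmod3_mul_ne_zero _ _ hα hα',
      by rw [map_mul]; exact zmod3_mul_ne_zero _ _ hγ' hγ, lr_mul ρ φ h h'⟩
  inv_mem' := by
    rintro g ⟨α, γ, hα, hγ, h⟩
    obtain ⟨α', hα1, hα2⟩ := F.unit α hα
    obtain ⟨γ', hγ1, hγ2⟩ := F.unit γ hγ
    refine ⟨α', γ', ?_, ?_, lr_inv ρ φ h hα2 hγ1⟩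
    · intro h0
      have h1 : Quaternion.normSq (α * α') = 1 := by rw [hα1, map_one]
      rw [map_mul, h0, mul_zero] at h1
      revert h1
      decide
    · intro h0
      have h1 : Quaternion.normSq (γ * γ') = 1 := by rw [hγ1, map_one]
      rw [map_mul, h0, mul_zero] at h1
      revert h1
      decide

/-- the wrapper for `PkgXNorm`, right type: if `g x g⁻¹` and `g y g⁻¹` act as right
multiplications by elements of `Q8`, then `g` acts as `h ↦ α (star h) γ` with units -/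
theorem al_of_norm (hNorm : PkgXNorm) {x y : G} (mx : ∀ v : V, φ (ρ x v) = qi * φ v)
    (my : ∀ v : V, φ (ρ y v) = qj * φ v) (g c d : G) (γ γ' : H) (hγ : Q8 γ) (hγ' : Q8 γ')
    (hcx : g * x = c * g) (hdy : g * y = d * g) (hc : LR ρ φ c 1 γ) (hd : LR ρ φ d 1 γ') :
    ∃ α β : H, Quaternion.normSq α ≠ 0 ∧ Quaternion.normSq β ≠ 0 ∧ AL ρ φ g α β := by
  have hsx : ∀ h : H, φ.symm (qi * h) = ρ x (φ.symm h) := by
    intro h
    apply φ.injective
    rw [LinearEquiv.apply_symm_apply, mx, LinearEquiv.apply_symm_apply]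
  have hsy : ∀ h : H, φ.symm (qj * h) = ρ y (φ.symm h) := by
    intro h
    apply φ.injective
    rw [LinearEquiv.apply_symm_apply, my, LinearEquiv.apply_symm_apply]
  have hmul : ∀ (a a' : G) (v : V), ρ (a * a') v = ρ a (ρ a' v) := by
    intro a a' v
    rw [map_mul]
    rfl
  have hone : ∀ v : V, ρ 1 v = v := by
    intro v
    rw [map_one]
    rfl
  have h1 : ∀ h : H, (starLM ∘ₗ φ.toLinearMap ∘ₗ (ρ g) ∘ₗ φ.symm.toLinearMap)
      ((φ.toLinearMap ∘ₗ (ρ g⁻¹) ∘ₗ φ.symm.toLinearMap ∘ₗ starLM) h) = h := by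
    intro h
    simp only [LinearMap.comp_apply, LinearEquiv.coe_coe, LinearEquiv.symm_apply_apply,
      starLM_apply]
    rw [← hmul, mul_inv_cancel, hone, LinearEquiv.apply_symm_apply, star_star]
  have h2 : ∀ h : H, (φ.toLinearMap ∘ₗ (ρ g⁻¹) ∘ₗ φ.symm.toLinearMap ∘ₗ starLM)
      ((starLM ∘ₗ φ.toLinearMap ∘ₗ (ρ g) ∘ₗ φ.symm.toLinearMap) h) = h := by
    intro h
    simp only [LinearMap.comp_apply, LinearEquiv.coe_coe, starLM_apply, star_star,
      LinearEquiv.symm_apply_apply]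
    rw [← hmul, inv_mul_cancel, hone, LinearEquiv.apply_symm_apply]
  have h3 : ∀ h : H, (starLM ∘ₗ φ.toLinearMap ∘ₗ (ρ g) ∘ₗ φ.symm.toLinearMap) (qi * h) =
      star γ * (starLM ∘ₗ φ.toLinearMap ∘ₗ (ρ g) ∘ₗ φ.symm.toLinearMap) h := by
    intro h
    simp only [LinearMap.comp_apply, LinearEquiv.coe_coe, starLM_apply]
    rw [hsx, ← hmul, hcx, hmul, hc, one_mul, star_mul]
  have h4 : ∀ h : H, (starLM ∘ₗ φ.toLinearMap ∘ₗ (ρ g) ∘ₗ φ.symm.toLinearMap) (qj * h) =
      star γ' * (starLM ∘ₗ φ.toLinearMap ∘ₗ (ρ g) ∘ₗ φ.symm.toLinearMap) h := by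
    intro h
    simp only [LinearMap.comp_apply, LinearEquiv.coe_coe, starLM_apply]
    rw [hsy, ← hmul, hdy, hmul, hd, one_mul, star_mul]
  obtain ⟨α, β, hα, hβ, hT⟩ := hNorm _ _ (star γ) (star γ') h1 h2 (q8_star γ hγ)
    (q8_star γ' hγ') h3 h4
  refine ⟨star β, star α, by rw [Quaternion.normSq_star]; exact hβ,
    by rw [Quaternion.normSq_star]; exact hα, fun v => ?_⟩
  have h5 := hT (φ v)
  simp only [LinearMap.comp_apply, LinearEquiv.coe_coe, LinearEquiv.symm_apply_apply,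
    starLM_apply] at h5
  have h6 : φ (ρ g v) = star (α * φ v * β) := by rw [← h5, star_star]
  rw [h6, star_mul, star_mul, mul_assoc]

/-- an element of `N` of square `z` acts as a left or as a right multiplication by an element
of `Q8` -/
theorem left_or_right {z : G} (hz : ∀ v : V, ρ z v = -v) {n : G} {p γ : H}
    (hp : Q8 p) (hγ : Q8 γ) (hn : LR ρ φ n p γ) (hnn : n * n = z) :
    (∃ p' : H, Q8 p' ∧ LR ρ φ n p' 1) ∨ (∃ γ' : H, Q8 γ' ∧ LR ρ φ n 1 γ') := by
  have hz1 : LR ρ φ z (-1) 1 := by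
    intro v
    rw [hz, map_neg, mul_one, neg_one_mul]
  have hz2 : LR ρ φ z (p * p) (γ * γ) := by
    rw [← hnn]
    exact lr_mul ρ φ hn hn
  have key : ∀ h : H, -(p * p) * h * (γ * γ) = h := by
    intro h
    have e1 := hz1 (φ.symm h)
    have e2 := hz2 (φ.symm h)
    rw [LinearEquiv.apply_symm_apply] at e1 e2
    rw [neg_mul, neg_mul, ← e2, e1, mul_one, neg_one_mul, neg_neg]
  have hk1 : -(p * p) * (γ * γ) = 1 := by
    have := key 1
    rwa [mul_one] at this
  rcases q8_cases p hp with rfl | rfl | hpp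
  · rcases q8_cases γ hγ with rfl | rfl | hγγ
    · exact absurd hk1 (by decide)
    · exact absurd hk1 (by decide)
    · exact Or.inr ⟨γ, hγ, hn⟩
  · rcases q8_cases γ hγ with rfl | rfl | hγγ
    · exact absurd hk1 (by decide)
    · exact absurd hk1 (by decide)
    · refine Or.inr ⟨-γ, q8_neg γ hγ, fun v => ?_⟩
      rw [hn v, one_mul, neg_one_mul, mul_neg, neg_mul]
  · rcases q8_cases γ hγ with rfl | rfl | hγγ
    · exact Or.inl ⟨p, hp, hn⟩
    · refine Or.inl ⟨-p, q8_neg p hp, fun v => ?_⟩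
      rw [hn v, mul_one, mul_neg, mul_one, neg_mul]
    · rw [hpp, hγγ] at hk1
      exact absurd hk1 (by decide)

end al

/-- every element acts as `h ↦ α h γ` or as `h ↦ α (star h) γ` with units `α, γ` -/
theorem unit_or_anti (hNorm : PkgXNorm)
    {G : Type u} [Group G] [Finite G] {V : Type v} [AddCommGroup V] [Module (ZMod 3) V]
    [Finite V] (ρ : Representation (ZMod 3) G V) (R : Subgroup G) (b : G) (Q : Subgroup G)
    (N : Subgroup G) (z x y : G) (φ : V ≃ₗ[ZMod 3] H)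
    (hC : Ctx ρ R b Q N z x y φ) (hQ : QFacts ρ φ N) (g : G) :
    (∃ α γ : H, Quaternion.normSq α ≠ 0 ∧ Quaternion.normSq γ ≠ 0 ∧ LR ρ φ g α γ) ∨
      (∃ α γ : H, Quaternion.normSq α ≠ 0 ∧ Quaternion.normSq γ ≠ 0 ∧ AL ρ φ g α γ) := by
  have hzv : ∀ v : V, ρ z v = -v := hC.extra.2.2.1
  have huN : g * x * g⁻¹ ∈ N := hC.Nnormal.conj_mem x hC.xN g
  have hwN : g * y * g⁻¹ ∈ N := hC.Nnormal.conj_mem y hC.yN g
  have hgz : g * z * g⁻¹ = z := by
    rw [← hC.zc g, mul_inv_cancel_right]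
  have huu : g * x * g⁻¹ * (g * x * g⁻¹) = z := by
    calc g * x * g⁻¹ * (g * x * g⁻¹) = g * (x * x) * g⁻¹ := by group
      _ = z := by rw [hC.xx, hgz]
  have hww : g * y * g⁻¹ * (g * y * g⁻¹) = z := by
    calc g * y * g⁻¹ * (g * y * g⁻¹) = g * (y * y) * g⁻¹ := by group
      _ = z := by rw [hC.yy, hgz]
  have hwu : g * y * g⁻¹ * (g * x * g⁻¹) = z * (g * x * g⁻¹ * (g * y * g⁻¹)) := by
    calc g * y * g⁻¹ * (g * x * g⁻¹) = g * (y * x) * g⁻¹ := by group
      _ = g * (z * x * y) * g⁻¹ := by rw [hC.yx]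
      _ = g * z * g⁻¹ * (g * x * g⁻¹ * (g * y * g⁻¹)) := by group
      _ = z * (g * x * g⁻¹ * (g * y * g⁻¹)) := by rw [hgz]
  have hcx : g * x = g * x * g⁻¹ * g := by group
  have hdy : g * y = g * y * g⁻¹ * g := by group
  have hmixed : ∀ (p γ : H), LR ρ φ (g * x * g⁻¹) p 1 → LR ρ φ (g * y * g⁻¹) 1 γ → False := by
    intro p γ hu hw
    have e1 := lr_mul ρ φ hu hw
    have e2 := lr_mul ρ φ hw hu
    have e3 : ρ (g * x * g⁻¹ * (g * y * g⁻¹)) = ρ (g * y * g⁻¹ * (g * x * g⁻¹)) := by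
      apply LinearMap.ext
      intro v
      apply φ.injective
      rw [e1 v, e2 v, mul_one, one_mul, mul_one, one_mul]
    have e4 := hC.setup.faith e3
    rw [hwu] at e4
    have e5 : z = 1 := by
      have := mul_right_cancel (e4.symm.trans (one_mul _).symm)
      exact this
    exact hC.extra.2.1 e5
  have hmixed' : ∀ (p γ : H), LR ρ φ (g * x * g⁻¹) 1 γ → LR ρ φ (g * y * g⁻¹) p 1 → False := by
    intro p γ hu hw
    have e1 := lr_mul ρ φ hu hw
    have e2 := lr_mul ρ φ hw hu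
    have e3 : ρ (g * x * g⁻¹ * (g * y * g⁻¹)) = ρ (g * y * g⁻¹ * (g * x * g⁻¹)) := by
      apply LinearMap.ext
      intro v
      apply φ.injective
      rw [e1 v, e2 v, mul_one, one_mul, mul_one, one_mul]
    have e4 := hC.setup.faith e3
    rw [hwu] at e4
    have e5 : z = 1 := by
      have := mul_right_cancel (e4.symm.trans (one_mul _).symm)
      exact this
    exact hC.extra.2.1 e5
  obtain ⟨p1, γ1, hp1, hγ1, hu⟩ := hQ _ huN
  obtain ⟨p2, γ2, hp2, hγ2, hw⟩ := hQ _ hwN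
  rcases left_or_right ρ φ hzv hp1 hγ1 hu huu with ⟨p, hp, hu'⟩ | ⟨γ, hγ, hu'⟩
  · rcases left_or_right ρ φ hzv hp2 hγ2 hw hww with ⟨p', hp', hw'⟩ | ⟨γ', hγ', hw'⟩
    · exact Or.inl (Cfsg.Agent.Lib.Helper61.S4415.lr_of_norm hNorm hC.mx hC.my g _ _ p p' hp hp'
        hcx hdy hu' hw')
    · exact (hmixed p γ' hu' hw').elim
  · rcases left_or_right ρ φ hzv hp2 hγ2 hw hww with ⟨p', hp', hw'⟩ | ⟨γ', hγ', hw'⟩
    · exact (hmixed' p' γ hu' hw').elim
    · exact Or.inr (al_of_norm ρ φ hNorm hC.mx hC.my g _ _ γ γ' hγ hγ' hcx hdy hu' hw')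

/-- [X-R1] -/
theorem pkgXR1 : PkgXR1.{u, v} := by
  intro hNorm F G _ _ V _ _ _ ρ R b Q N z x y φ hC hB hQ
  have hdich := unit_or_anti hNorm ρ R b Q N z x y φ hC hQ
  have hb : b ∈ unitLR ρ φ F := by
    obtain ⟨β₁, β₂, hb, hβ₁, hβ₂, -⟩ := hB
    exact ⟨β₁, β₂, by rw [F.cube_norm β₁ hβ₁]; decide, by rw [F.cube_norm β₂ hβ₂]; decide, hb⟩
  have hzp : Subgroup.zpowers b ≤ unitLR ρ φ F := Subgroup.zpowers_le.mpr hb
  have hR : R ≤ unitLR ρ φ F := by
    have h1 : ⁅R, Subgroup.zpowers b⁆ ≤ unitLR ρ φ F := by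
      rw [Subgroup.commutator_le]
      intro r hr c hc
      rw [commutatorElement_def]
      by_cases hrU : r ∈ unitLR ρ φ F
      · exact mul_mem (mul_mem (mul_mem hrU (hzp hc)) (inv_mem hrU)) (inv_mem (hzp hc))
      · have hrW := (hdich r).resolve_left hrU
        have hriU : r⁻¹ ∉ unitLR ρ φ F := fun h => hrU (by simpa using inv_mem h)
        have hriW := (hdich r⁻¹).resolve_left hriU
        obtain ⟨α, γ, hα, hγ, hr1⟩ := hrW
        obtain ⟨α', γ', hα', hγ', hr2⟩ := hriW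
        obtain ⟨β, β', hβ, hβ', hc1⟩ := hzp hc
        have h2 := al_al ρ φ (al_lr ρ φ hr1 hc1) hr2
        have h3 : r * c * r⁻¹ ∈ unitLR ρ φ F := by
          refine ⟨_, _, ?_, ?_, h2⟩
          · rw [map_mul, map_mul, Quaternion.normSq_star, Quaternion.normSq_star]
            exact zmod3_mul_ne_zero _ _ (zmod3_mul_ne_zero _ _ hα hβ') hγ'
          · rw [map_mul, map_mul, Quaternion.normSq_star, Quaternion.normSq_star]
            exact zmod3_mul_ne_zero _ _ hα' (zmod3_mul_ne_zero _ _ hβ hγ)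
        exact mul_mem h3 (inv_mem (hzp hc))
    rw [hC.setup.comm] at h1
    exact h1
  intro r hr
  exact hR hr

end Cfsg.Agent.Lib.Helper3.S4415
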